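import Groth.Prelude.Def_FilD
import Mathlib.CategoryTheory.Abelian.Refinements
import Mathlib.CategoryTheory.Abelian.Exact
import Mathlib.Algebra.Homology.ShortComplex.ShortExact
import Mathlib.CategoryTheory.Limits.FunctorCategory.EpiMono
import Mathlib.CategoryTheory.Preadditive.Injective.Basic
import Mathlib.Algebra.Homology.Homotopy
import Mathlib.Algebra.Homology.Embedding.CochainComplex
import Mathlib.Algebra.Homology.ShortComplex.HomologicalComplex
import Mathlib.Algebra.Homology.HomotopyCategory.Pretriangulated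
import Mathlib.Algebra.Homology.HomotopyCategory.Acyclic
import Mathlib.Algebra.Homology.HomotopyCategory.MappingCone
import Mathlib.Algebra.Homology.HomotopyCategory.SingleFunctors

/-!
# helper2: API for finite filtered objects (`Def_FilD`)

* `tr F h` : transition map `F (op q) ⟶ F (op p)` for `p ≤ q`.
* `natTransOfSteps` : natural transformation from a family commuting with the step maps.
* `exists_natTrans_of_step` : descending recursion construction of natural transformations.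
* `injective_level` : levels of a filtered injective are injective.
* `StrictAt`, `isStrict_iff` : strictness in "up to refinements" form (consecutive levels suffice).
* `step_extend`, `exists_ext` : extension along strict maps into filtered injectives.
-/

universe v u

open CategoryTheory CategoryTheory.Limits Opposite Preadditive

namespace Groth.Agent.Lib.Helper2.FilDLib

variable {A : Type u} [Category.{v} A] [Abelian A]

/-- transition map `F_q → F_p` for `p ≤ q`. -/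
noncomputable abbrev tr (F : ℤᵒᵖ ⥤ A) {p q : ℤ} (h : p ≤ q) : F.obj (op q) ⟶ F.obj (op p) :=
  F.map (homOfLE h).op

lemma tr_comp (F : ℤᵒᵖ ⥤ A) {p q r : ℤ} (h1 : p ≤ q) (h2 : q ≤ r) :
    tr F h2 ≫ tr F h1 = tr F (h1.trans h2) := by
  rw [tr, tr, ← F.map_comp]
  rfl

@[reassoc]
lemma tr_comp_assoc' (F : ℤᵒᵖ ⥤ A) {p q r : ℤ} (h1 : p ≤ q) (h2 : q ≤ r) {Z : A}
    (k : F.obj (op p) ⟶ Z) :
    tr F h2 ≫ tr F h1 ≫ k = tr F (h1.trans h2) ≫ k := by
  rw [← Category.assoc, tr_comp]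

lemma tr_refl (F : ℤᵒᵖ ⥤ A) (p : ℤ) : tr F (le_refl p) = 𝟙 _ := by
  rw [tr]
  exact F.map_id _

lemma map_stepHom (F : ℤᵒᵖ ⥤ A) (p : ℤ) :
    F.map (FilD.stepHom p) = tr F (Int.le_add_one le_rfl : p ≤ p + 1) := rfl

lemma map_eq_tr (F : ℤᵒᵖ ⥤ A) {X Y : ℤᵒᵖ} (f : X ⟶ Y) :
    F.map f = tr F (leOfHom f.unop) := rfl

@[reassoc]
lemma tr_naturality {F G : ℤᵒᵖ ⥤ A} (α : F ⟶ G) {p q : ℤ} (h : p ≤ q) :
    tr F h ≫ α.app (op p) = α.app (op q) ≫ tr G h := α.naturality _

lemma naturality_of_steps {F G : ℤᵒᵖ ⥤ A} (α : ∀ p : ℤ, F.obj (op p) ⟶ G.obj (op p))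
    (h : ∀ p : ℤ, F.map (FilD.stepHom p) ≫ α p = α (p + 1) ≫ G.map (FilD.stepHom p)) :
    ∀ (n : ℕ) (p q : ℤ) (hq : q = p + n),
      tr F (show p ≤ q by omega) ≫ α p = α q ≫ tr G (show p ≤ q by omega) := by
  intro n
  induction n with
  | zero =>
    intro p q hq
    have : q = p := by omega
    subst this
    rw [tr_refl, tr_refl, Category.id_comp, Category.comp_id]
  | succ n ih =>
    intro p q hq
    have h1 : p + 1 ≤ q := by omega
    rw [← tr_comp F (Int.le_add_one le_rfl) h1, ← tr_comp G (Int.le_add_one le_rfl) h1,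
      Category.assoc, ← map_stepHom, h p, ← Category.assoc, ih (p + 1) q (by omega),
      Category.assoc, map_stepHom]

/-- A natural transformation from a family commuting with the step maps. -/
noncomputable def natTransOfSteps {F G : ℤᵒᵖ ⥤ A} (α : ∀ p : ℤ, F.obj (op p) ⟶ G.obj (op p))
    (h : ∀ p : ℤ, F.map (FilD.stepHom p) ≫ α p = α (p + 1) ≫ G.map (FilD.stepHom p)) :
    F ⟶ G where
  app X := α X.unop
  naturality X Y f := by
    have hle : Y.unop ≤ X.unop := leOfHom f.unop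
    have := naturality_of_steps α h (X.unop - Y.unop).toNat Y.unop X.unop (by omega)
    rw [map_eq_tr F f, map_eq_tr G f]
    exact this

@[simp]
lemma natTransOfSteps_app {F G : ℤᵒᵖ ⥤ A} (α : ∀ p : ℤ, F.obj (op p) ⟶ G.obj (op p))
    (h : ∀ p : ℤ, F.map (FilD.stepHom p) ≫ α p = α (p + 1) ≫ G.map (FilD.stepHom p)) (p : ℤ) :
    (natTransOfSteps α h).app (op p) = α p := rfl

section transport

variable {F G : ℤᵒᵖ ⥤ A}

/-- transport of a levelwise map along an equality of levels. -/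
noncomputable def transp {p p' : ℤ} (e : p = p') (g : F.obj (op p') ⟶ G.obj (op p')) :
    F.obj (op p) ⟶ G.obj (op p) :=
  eqToHom (by rw [e]) ≫ g ≫ eqToHom (by rw [e])

lemma transp_rfl {p : ℤ} (g : F.obj (op p) ⟶ G.obj (op p)) : transp rfl g = g := by
  simp [transp]

lemma transp_zero {p p' : ℤ} (e : p = p') : transp (F := F) (G := G) e 0 = 0 := by
  subst e; simp [transp]

lemma transp_prop (P : ∀ p : ℤ, (F.obj (op p) ⟶ G.obj (op p)) → Prop) {p p' : ℤ} (e : p = p')
    (g : F.obj (op p') ⟶ G.obj (op p')) (hg : P p' g) : P p (transp e g) := by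
  subst e; rwa [transp_rfl]

lemma transp_tr {p p' q q' : ℤ} (e : p = p') (e' : q = q') (h : p ≤ q) (h' : p' ≤ q')
    (g : F.obj (op p') ⟶ G.obj (op p')) (g' : F.obj (op q') ⟶ G.obj (op q'))
    (hg : tr F h' ≫ g = g' ≫ tr G h') : tr F h ≫ transp e g = transp e' g' ≫ tr G h := by
  subst e e'
  rw [transp_rfl, transp_rfl]
  exact hg

end transport

/-- Descending recursion: construct a natural transformation level by level from the top. -/
theorem exists_natTrans_of_step {F G : ℤᵒᵖ ⥤ A} (b : ℤ)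
    (P : ∀ p : ℤ, (F.obj (op p) ⟶ G.obj (op p)) → Prop)
    (h0 : ∀ p, b ≤ p → P p 0)
    (hstep : ∀ (p : ℤ) (g : F.obj (op (p + 1)) ⟶ G.obj (op (p + 1))), P (p + 1) g →
      ∃ g' : F.obj (op p) ⟶ G.obj (op p), P p g' ∧
        F.map (FilD.stepHom p) ≫ g' = g ≫ G.map (FilD.stepHom p)) :
    ∃ α : F ⟶ G, ∀ p, P p (α.app (op p)) := by
  have hstep' : ∀ (p q : ℤ) (_ : p + 1 = q) (g : F.obj (op q) ⟶ G.obj (op q)), P q g →
      ∃ g' : F.obj (op p) ⟶ G.obj (op p), P p g' ∧
        tr F (show p ≤ q by omega) ≫ g' = g ≫ tr G (show p ≤ q by omega) := by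
    intro p q hpq g hg
    subst hpq
    exact hstep p g hg
  choose stp hstpP hstpC using hstep'
  let s : (n : ℕ) → {g : F.obj (op (b - n)) ⟶ G.obj (op (b - n)) // P (b - n) g} :=
    fun n => Nat.rec (motive := fun n => {g : F.obj (op (b - n)) ⟶ G.obj (op (b - n)) // P (b - n) g})
      ⟨0, h0 _ (by simp)⟩
      (fun n sn => ⟨stp (b - ((n + 1 : ℕ) : ℤ)) (b - n) (by push_cast; omega) sn.1 sn.2,
        hstpP _ _ _ _ _⟩) n
  have hs0 : (s 0).1 = 0 := rfl
  have hsS : ∀ n : ℕ, tr F (show b - ((n + 1 : ℕ) : ℤ) ≤ b - n by omega) ≫ (s (n + 1)).1 =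
      (s n).1 ≫ tr G (show b - ((n + 1 : ℕ) : ℤ) ≤ b - n by omega) := fun n =>
    hstpC _ _ _ _ _
  let α : ∀ p : ℤ, F.obj (op p) ⟶ G.obj (op p) := fun p =>
    if h : p ≤ b then transp (show p = b - ((b - p).toNat : ℕ) by omega) (s (b - p).toNat).1 else 0
  have hα : ∀ (p : ℤ) (n : ℕ) (e : p = b - n), α p = transp e (s n).1 := by
    intro p n e
    have hp : p ≤ b := by omega
    have hn : (b - p).toNat = n := by omega
    simp only [α, dif_pos hp]
    subst hn
    rfl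
  have hαz : ∀ p, b ≤ p → α p = 0 := by
    intro p hp
    by_cases hpb : p ≤ b
    · have : p = b := le_antisymm hpb hp
      rw [hα p 0 (by omega), hs0, transp_zero]
    · simp only [α, dif_neg hpb]
  have hnat : ∀ p : ℤ, F.map (FilD.stepHom p) ≫ α p = α (p + 1) ≫ G.map (FilD.stepHom p) := by
    intro p
    by_cases hp : p + 1 ≤ b
    · obtain ⟨n, hn⟩ : ∃ n : ℕ, p + 1 = b - n := ⟨(b - (p + 1)).toNat, by omega⟩
      rw [hα p (n + 1) (by push_cast; omega), hα (p + 1) n hn, map_stepHom, map_stepHom]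
      exact transp_tr _ _ _ _ _ _ (hsS n)
    · rw [hαz p (by omega), hαz (p + 1) (by omega), comp_zero, zero_comp]
  refine ⟨natTransOfSteps α hnat, fun p => ?_⟩
  rw [natTransOfSteps_app]
  by_cases hp : p ≤ b
  · rw [hα p (b - p).toNat (by omega)]
    exact transp_prop P _ _ (s _).2
  · rw [hαz p (by omega)]
    exact h0 p (by omega)


/-! ### Basic facts on finite filtered objects -/

lemma mono_tr (X : FilD.FilF A) {p q : ℤ} (h : p ≤ q) : Mono (tr X.obj h) := X.property.1 _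

lemma mono_map (X : FilD.FilF A) {p q : ℤᵒᵖ} (f : p ⟶ q) : Mono (X.obj.map f) := X.property.1 _

lemma mono_stepHom (X : FilD.FilF A) (p : ℤ) : Mono (X.obj.map (FilD.stepHom p)) := X.property.1 _

/-- Levels of a filtered injective object are injective. -/
lemma injective_level (I : FilD.FilF A) (hI : FilD.IsFilteredInjective I) (p : ℤ) :
    Injective (I.obj.obj (op p)) := by
  obtain ⟨b, hb⟩ := I.property.2.1
  have key : ∀ (n : ℕ) (p : ℤ), p = b - n → Injective (I.obj.obj (op p)) := by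
    intro n
    induction n with
    | zero => intro p hp; exact (hb p (by omega)).injective
    | succ n ih =>
      intro p hp
      have h1 : Injective (I.obj.obj (op (p + 1))) := ih (p + 1) (by push_cast at hp; omega)
      let S : ShortComplex A := ShortComplex.mk (I.obj.map (FilD.stepHom p)) (cokernel.π _)
        (cokernel.condition _)
      have hmono : Mono S.f := I.property.1 _
      have hS : S.ShortExact := ShortComplex.ShortExact.mk'
        (ShortComplex.exact_of_g_is_cokernel _ (cokernelIsCokernel _)) hmono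
        (by dsimp [S]; infer_instance)
      have : Injective S.X₁ := h1
      have : Injective S.X₃ := hI p
      exact Injective.of_iso (hS.splittingOfInjective.isoBinaryBiproduct).symm inferInstance
  by_cases hp : b ≤ p
  · exact (hb p hp).injective
  · exact key (b - p).toNat p (by omega)

/-! ### Strictness in refinement form -/

/-- strictness at a pair of levels, in refinement form. -/
def StrictAt {X Y : FilD.FilF A} (φ : X ⟶ Y) (p q : ℤ) (h : p ≤ q) : Prop :=
  ∀ ⦃T : A⦄ (s : T ⟶ Y.obj.obj (op q)) (x : T ⟶ X.obj.obj (op p)),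
    s ≫ tr Y.obj h = x ≫ φ.hom.app (op p) →
    ∃ (T' : A) (π : T' ⟶ T) (_ : Epi π) (x' : T' ⟶ X.obj.obj (op q)),
      π ≫ s = x' ≫ φ.hom.app (op q)

lemma strictAt_of_succ {X Y : FilD.FilF A} (φ : X ⟶ Y)
    (hφ : ∀ p, StrictAt φ p (p + 1) (Int.le_add_one le_rfl)) :
    ∀ (n : ℕ) (p q : ℤ) (h : p ≤ q), q = p + n → StrictAt φ p q h := by
  intro n
  induction n with
  | zero =>
    intro p q h hq T s x hsx
    have : q = p := by omega
    subst this
    refine ⟨_, 𝟙 _, inferInstance, x, ?_⟩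
    rw [tr_refl, Category.comp_id] at hsx
    rw [Category.id_comp, hsx]
  | succ n ih =>
    intro p q h hq T s x hsx
    have h1 : p + 1 ≤ q := by omega
    have e1 : (s ≫ tr Y.obj h1) ≫ tr Y.obj (Int.le_add_one le_rfl : p ≤ p + 1) =
        x ≫ φ.hom.app (op p) := by
      rw [Category.assoc, tr_comp]; exact hsx
    obtain ⟨T₁, π₁, hπ₁, x₁, hx₁⟩ := hφ p _ _ e1
    have e2 : (π₁ ≫ s) ≫ tr Y.obj h1 = x₁ ≫ φ.hom.app (op (p + 1)) := by
      rw [Category.assoc]; exact hx₁
    obtain ⟨T₂, π₂, hπ₂, x₂, hx₂⟩ := ih (p + 1) q h1 (by omega) _ _ e2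
    exact ⟨T₂, π₂ ≫ π₁, epi_comp _ _, x₂, by rw [Category.assoc]; exact hx₂⟩

lemma factors_imageSubobject_iff {X Y : A} (f : X ⟶ Y) {T : A} (t : T ⟶ Y) :
    (imageSubobject f).Factors t ↔
      ∃ (T' : A) (π : T' ⟶ T) (_ : Epi π) (x : T' ⟶ X), π ≫ t = x ≫ f := by
  have hex : (ShortComplex.mk f (cokernel.π f) (cokernel.condition f)).Exact :=
    ShortComplex.exact_of_g_is_cokernel _ (cokernelIsCokernel f)
  rw [ShortComplex.exact_iff_image_eq_kernel] at hex
  change (imageSubobject f).Factors t ↔ _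
  rw [hex, kernelSubobject_factors_iff]
  exact CokernelCofork.IsColimit.comp_π_eq_zero_iff_up_to_refinements (cokernelIsCokernel f) t

lemma isStrict_iff {X Y : FilD.FilF A} (φ : X ⟶ Y) :
    FilD.IsStrict φ ↔ ∀ p, StrictAt φ p (p + 1) (Int.le_add_one le_rfl) := by
  constructor
  · intro hφ p T s x hsx
    have hq := hφ p (p + 1) (Int.le_add_one le_rfl)
    have hmono := mono_tr Y (Int.le_add_one le_rfl : p ≤ p + 1)
    have hfac : (imageSubobject (φ.hom.app (op p)) ⊓
        Subobject.mk (tr Y.obj (Int.le_add_one le_rfl : p ≤ p + 1))).Factors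
          (s ≫ tr Y.obj (Int.le_add_one le_rfl : p ≤ p + 1)) := by
      rw [Subobject.inf_factors]
      refine ⟨?_, ?_⟩
      · rw [hsx]; exact imageSubobject_factors_comp_self _ _
      · exact (Subobject.mk_factors_iff _ _).2 ⟨s, rfl⟩
    rw [← hq, factors_imageSubobject_iff] at hfac
    obtain ⟨T', π, hπ, x', hx'⟩ := hfac
    refine ⟨T', π, hπ, x', ?_⟩
    rw [← cancel_mono (tr Y.obj (Int.le_add_one le_rfl : p ≤ p + 1))]
    simpa [Category.assoc] using hx'
  · intro hφ p q h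
    have hall := strictAt_of_succ φ hφ (q - p).toNat p q h (by omega)
    have hmono := mono_tr Y h
    apply le_antisymm
    · apply le_inf
      · exact imageSubobject_le _ (X.obj.map (homOfLE h).op ≫ factorThruImageSubobject _)
          (by rw [Category.assoc, imageSubobject_arrow_comp]; exact φ.hom.naturality _)
      · exact imageSubobject_le_mk _ _ (φ.hom.app (op q)) rfl
    · apply Subobject.le_of_factors
      rw [factors_imageSubobject_iff]
      set S := imageSubobject (φ.hom.app (op p)) ⊓ Subobject.mk (Y.obj.map (homOfLE h).op)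
      have h1 : (imageSubobject (φ.hom.app (op p))).Factors S.arrow :=
        Subobject.factors_left_of_inf_factors (Subobject.factors_self _)
      have h2 : (Subobject.mk (Y.obj.map (homOfLE h).op)).Factors S.arrow :=
        Subobject.factors_right_of_inf_factors (Subobject.factors_self _)
      obtain ⟨s₀, hs⟩ := (Subobject.mk_factors_iff _ _).1 h2
      let s : (S : A) ⟶ Y.obj.obj (op q) := s₀
      rw [factors_imageSubobject_iff] at h1
      obtain ⟨T₀, π₀, hπ₀, x, hx⟩ := h1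
      have hs' : s ≫ tr Y.obj h = S.arrow := hs
      obtain ⟨T₁, π₁, hπ₁, x', hx'⟩ := hall (π₀ ≫ s) x (by rw [Category.assoc, hs', hx])
      refine ⟨T₁, π₁ ≫ π₀, epi_comp _ _, x', ?_⟩
      rw [← hs', ← Category.assoc, ← Category.assoc, Category.assoc π₁, hx', Category.assoc]


/-! ### Kernels computed levelwise -/

lemma kernel_app_comp {F G : ℤᵒᵖ ⥤ A} (φ : F ⟶ G) (p : ℤᵒᵖ) :
    (kernel.ι φ).app p ≫ φ.app p = 0 := by
  rw [← NatTrans.comp_app, kernel.condition, NatTrans.app_zero]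

lemma kernel_level_exact {F G : ℤᵒᵖ ⥤ A} (φ : F ⟶ G) (p : ℤᵒᵖ) :
    (ShortComplex.mk ((kernel.ι φ).app p) (φ.app p) (kernel_app_comp φ p)).Exact := by
  have h : (ShortComplex.mk (kernel.ι φ) φ (kernel.condition φ)).Exact :=
    ShortComplex.exact_of_f_is_kernel _ (kernelIsKernel φ)
  exact h.map ((evaluation ℤᵒᵖ A).obj p)

/-- exact lift of a map killed by `φ` at some level into the kernel. -/
lemma exists_kernel_lift {F G : ℤᵒᵖ ⥤ A} (φ : F ⟶ G) (p : ℤᵒᵖ) {T : A} (x : T ⟶ F.obj p)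
    (hx : x ≫ φ.app p = 0) : ∃ k : T ⟶ (kernel φ).obj p, k ≫ (kernel.ι φ).app p = x :=
  ⟨(kernel_level_exact φ p).lift x hx, (kernel_level_exact φ p).lift_f x hx⟩

lemma mono_kernel_map {X Y : FilD.FilF A} (φ : X ⟶ Y) {p q : ℤᵒᵖ} (f : p ⟶ q) :
    Mono ((kernel φ.hom).map f) := by
  have h1 : (kernel φ.hom).map f ≫ (kernel.ι φ.hom).app q =
      (kernel.ι φ.hom).app p ≫ X.obj.map f := (kernel.ι φ.hom).naturality f
  have := X.property.1 f
  have : Mono ((kernel φ.hom).map f ≫ (kernel.ι φ.hom).app q) := by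
    rw [h1]; infer_instance
  exact mono_of_mono _ ((kernel.ι φ.hom).app q)

lemma isFinFil_kernel {X Y : FilD.FilF A} (φ : X ⟶ Y) : FilD.IsFinFil A (kernel φ.hom) := by
  refine ⟨fun p q f => mono_kernel_map φ f, ?_, ?_⟩
  · obtain ⟨b, hb⟩ := X.property.2.1
    exact ⟨b, fun p hp => IsZero.of_mono ((kernel.ι φ.hom).app (op p)) (hb p hp)⟩
  · obtain ⟨a1, ha1⟩ := X.property.2.2
    obtain ⟨a2, ha2⟩ := Y.property.2.2
    refine ⟨min a1 a2, fun p q f hp => ?_⟩
    have hX : IsIso (X.obj.map f) := ha1 f (hp.trans (min_le_left _ _))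
    have hY : IsIso (Y.obj.map f) := ha2 f (hp.trans (min_le_right _ _))
    have hmono := mono_kernel_map φ f
    have hepi : Epi ((kernel φ.hom).map f) := by
      rw [epi_iff_surjective_up_to_refinements]
      intro T z
      let x' := z ≫ (kernel.ι φ.hom).app q ≫ inv (X.obj.map f)
      have hx' : x' ≫ φ.hom.app p = 0 := by
        rw [← cancel_mono (Y.obj.map f), zero_comp]
        simp only [x', Category.assoc]
        rw [← φ.hom.naturality f, IsIso.inv_hom_id_assoc, kernel_app_comp, comp_zero]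
      obtain ⟨k, hk⟩ := exists_kernel_lift φ.hom p x' hx'
      refine ⟨T, 𝟙 T, inferInstance, k, ?_⟩
      rw [← cancel_mono ((kernel.ι φ.hom).app q), Category.id_comp, Category.assoc,
        (kernel.ι φ.hom).naturality f, ← Category.assoc, hk]
      simp only [x', Category.assoc, IsIso.inv_hom_id, Category.comp_id]
    exact isIso_of_mono_of_epi _

/-- the kernel as a finite filtered object. -/
noncomputable def kerF {X Y : FilD.FilF A} (φ : X ⟶ Y) : FilD.FilF A :=
  ⟨kernel φ.hom, isFinFil_kernel φ⟩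

/-- a monomorphism of finite filtered objects is levelwise a monomorphism. -/
lemma mono_app_of_mono {X Y : FilD.FilF A} (u : X ⟶ Y) [Mono u] (p : ℤᵒᵖ) :
    Mono (u.hom.app p) := by
  let i : kerF u ⟶ X := ObjectProperty.homMk (kernel.ι u.hom)
  have hi : i ≫ u = 0 := by
    ext1; exact kernel.condition u.hom
  have hi0 : i = 0 := by rw [← cancel_mono u, hi, zero_comp]
  rw [Preadditive.mono_iff_cancel_zero]
  intro T x hx
  obtain ⟨k, hk⟩ := exists_kernel_lift u.hom p x hx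
  have h0 : (kernel.ι u.hom).app p = 0 := by
    have h := congrArg (fun f => f.hom.app p) hi0
    exact h
  rw [← hk, h0, comp_zero]

/-! ### The extension step -/

/-- One step of the level-by-level extension along a strict map. -/
lemma step_extend {Xp Xq Yp Yq Wp Ip Iq : A} (ιX : Xq ⟶ Xp) (ιY : Yq ⟶ Yp) (ιI : Iq ⟶ Ip)
    (dp : Xp ⟶ Yp) (dq : Xq ⟶ Yq) (hd : ιX ≫ dp = dq ≫ ιY)
    (e : Wp ⟶ Xp)
    (hex : ∀ ⦃T : A⦄ (x : T ⟶ Xp), x ≫ dp = 0 →
      ∃ (T' : A) (π : T' ⟶ T) (_ : Epi π) (w : T' ⟶ Wp), π ≫ x = w ≫ e)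
    (hstrict : ∀ ⦃T : A⦄ (s : T ⟶ Yq) (x : T ⟶ Xp), s ≫ ιY = x ≫ dp →
      ∃ (T' : A) (π : T' ⟶ T) (_ : Epi π) (x' : T' ⟶ Xq), π ≫ s = x' ≫ dq)
    (gp : Xp ⟶ Ip) (hge : e ≫ gp = 0) (gq : Xq ⟶ Iq) (hg : ιX ≫ gp = gq ≫ ιI)
    (hq : Yq ⟶ Iq) (hhq : dq ≫ hq = gq) [Injective Ip] :
    ∃ hp : Yp ⟶ Ip, dp ≫ hp = gp ∧ ιY ≫ hp = hq ≫ ιI := by
  let φ : Xp ⊞ Yq ⟶ Yp := biprod.desc dp ιY
  let ψ : Xp ⊞ Yq ⟶ Ip := biprod.desc gp (hq ≫ ιI)
  have claim0 : ∀ ⦃T : A⦄ (x : T ⟶ Xp) (y : T ⟶ Yq), x ≫ dp + y ≫ ιY = 0 →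
      x ≫ gp + y ≫ hq ≫ ιI = 0 := by
    intro T x y hxy
    have hxy' : x ≫ dp = -(y ≫ ιY) := eq_neg_of_add_eq_zero_left hxy
    have h1 : (-y) ≫ ιY = x ≫ dp := by rw [hxy', Preadditive.neg_comp]
    obtain ⟨T₁, π₁, hπ₁, x', hx'⟩ := hstrict (-y) x h1
    have h2 : (π₁ ≫ x - x' ≫ ιX) ≫ dp = 0 := by
      simp only [Preadditive.sub_comp, Category.assoc, hd]
      rw [← Category.assoc x' dq ιY, ← hx', hxy']
      simp
    obtain ⟨T₂, π₂, hπ₂, w, hw⟩ := hex _ h2
    have e2 : π₂ ≫ π₁ ≫ x = w ≫ e + π₂ ≫ x' ≫ ιX := by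
      rw [← hw, Preadditive.comp_sub]; abel
    have e3 : π₁ ≫ y = -(x' ≫ dq) := by rw [← hx', Preadditive.comp_neg, neg_neg]
    have hhq' : ∀ {Z : A} (k : Iq ⟶ Z), dq ≫ hq ≫ k = gq ≫ k := fun k => by
      rw [← Category.assoc, hhq]
    have : (π₂ ≫ π₁) ≫ (x ≫ gp + y ≫ hq ≫ ιI) = 0 := by
      calc (π₂ ≫ π₁) ≫ (x ≫ gp + y ≫ hq ≫ ιI)
          = (π₂ ≫ π₁ ≫ x) ≫ gp + π₂ ≫ (π₁ ≫ y) ≫ hq ≫ ιI := by
            simp [Preadditive.comp_add]
        _ = 0 := by
            rw [e2, e3]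
            simp [Preadditive.add_comp, hge, hg, hhq']
    rw [← cancel_epi (π₂ ≫ π₁), this, comp_zero]
  have claim : ∀ ⦃T : A⦄ (t : T ⟶ Xp ⊞ Yq), t ≫ φ = 0 → t ≫ ψ = 0 := by
    intro T t ht
    have e1 : t ≫ φ = (t ≫ biprod.fst) ≫ dp + (t ≫ biprod.snd) ≫ ιY := by
      simp [φ, biprod.desc_eq, Preadditive.comp_add]
    have e2 : t ≫ ψ = (t ≫ biprod.fst) ≫ gp + (t ≫ biprod.snd) ≫ hq ≫ ιI := by
      simp [ψ, biprod.desc_eq, Preadditive.comp_add]
    rw [e2]
    exact claim0 _ _ (e1 ▸ ht)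
  let ε := factorThruImage φ
  let μ := image.ι φ
  have hεμ : ε ≫ μ = φ := image.fac φ
  have hk : kernel.ι ε ≫ ψ = 0 := by
    apply claim
    calc kernel.ι ε ≫ φ = kernel.ι ε ≫ ε ≫ μ := by rw [hεμ]
      _ = 0 := by rw [← Category.assoc, kernel.condition, zero_comp]
  let hc := Abelian.epiIsCokernelOfKernel _ (kernelIsKernel ε)
  let ψ' : image φ ⟶ Ip := hc.desc (CokernelCofork.ofπ ψ hk)
  have hψ' : ε ≫ ψ' = ψ := hc.fac (CokernelCofork.ofπ ψ hk) WalkingParallelPair.one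
  have key : φ ≫ Injective.factorThru ψ' μ = ψ := by
    calc φ ≫ Injective.factorThru ψ' μ = (ε ≫ μ) ≫ Injective.factorThru ψ' μ := by rw [hεμ]
      _ = ε ≫ ψ' := by rw [Category.assoc, Injective.comp_factorThru]
      _ = ψ := hψ'
  refine ⟨Injective.factorThru ψ' μ, ?_, ?_⟩
  · have := congrArg (fun k => biprod.inl ≫ k) key
    simpa [φ, ψ] using this
  · have := congrArg (fun k => biprod.inr ≫ k) key
    simpa [φ, ψ] using this


/-! ### Extension into filtered injectives -/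

lemma hom_app_eq_zero {X Y : FilD.FilF A} {f : X ⟶ Y} (hf : f = 0) (p : ℤᵒᵖ) :
    f.hom.app p = 0 := by
  subst hf; rfl

lemma comp_hom_app {X Y Z : FilD.FilF A} (f : X ⟶ Y) (g : Y ⟶ Z) (p : ℤᵒᵖ) :
    (f ≫ g).hom.app p = f.hom.app p ≫ g.hom.app p := rfl

/-- Extension along a strict map `d` (with levelwise exactness of `W → X → Y`) into a filtered
injective object. -/
theorem exists_ext {W X Y I : FilD.FilF A} (e : W ⟶ X) (d : X ⟶ Y)
    (hex : ∀ (p : ℤ) ⦃T : A⦄ (x : T ⟶ X.obj.obj (op p)), x ≫ d.hom.app (op p) = 0 →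
      ∃ (T' : A) (π : T' ⟶ T) (_ : Epi π) (w : T' ⟶ W.obj.obj (op p)),
        π ≫ x = w ≫ e.hom.app (op p))
    (hd : FilD.IsStrict d) (hI : FilD.IsFilteredInjective I) (g : X ⟶ I) (hg : e ≫ g = 0) :
    ∃ h : Y ⟶ I, d ≫ h = g := by
  rw [isStrict_iff] at hd
  obtain ⟨bX, hbX⟩ := X.property.2.1
  obtain ⟨α, hα⟩ := exists_natTrans_of_step (F := Y.obj) (G := I.obj) bX
    (fun p h => d.hom.app (op p) ≫ h = g.hom.app (op p))
    (fun p hp => by
      simp only [comp_zero]
      exact ((hbX p hp).eq_of_src _ _))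
    (fun p hq hhq => by
      have := injective_level I hI p
      have hge : e.hom.app (op p) ≫ g.hom.app (op p) = 0 := by
        rw [← comp_hom_app]; exact hom_app_eq_zero hg _
      exact step_extend (X.obj.map (FilD.stepHom p)) (Y.obj.map (FilD.stepHom p))
        (I.obj.map (FilD.stepHom p)) (d.hom.app (op p)) (d.hom.app (op (p + 1)))
        (d.hom.naturality _) (e.hom.app (op p)) (hex p) (hd p)
        (g.hom.app (op p)) hge (g.hom.app (op (p + 1))) (g.hom.naturality _) hq hhq)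
  refine ⟨ObjectProperty.homMk α, ?_⟩
  apply ObjectProperty.hom_ext
  ext p
  exact hα p.unop

/-- Extension along a strict monomorphism into a filtered injective object. -/
theorem exists_ext_of_mono {X Y I : FilD.FilF A} (u : X ⟶ Y) [Mono u] (hu : FilD.IsStrict u)
    (hI : FilD.IsFilteredInjective I) (f : X ⟶ I) : ∃ g : Y ⟶ I, u ≫ g = f := by
  refine exists_ext (W := X) 0 u (fun p T x hx => ?_) hu hI f zero_comp
  have := mono_app_of_mono u (op p)
  have hx0 : x = 0 := by rw [← cancel_mono (u.hom.app (op p)), hx, zero_comp]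
  refine ⟨T, 𝟙 T, inferInstance, 0, ?_⟩
  rw [hx0, comp_zero, zero_comp]


/-! ### Graded pieces -/

/-- the projection `F_p ⟶ gr^p F`. -/
noncomputable abbrev grπ (F : ℤᵒᵖ ⥤ A) (p : ℤ) : F.obj (op p) ⟶ (FilD.gr A p).obj F :=
  cokernel.π (F.map (FilD.stepHom p))

instance (F : ℤᵒᵖ ⥤ A) (p : ℤ) : Epi (grπ F p) :=
  inferInstanceAs (Epi (coequalizer.π (F.map (FilD.stepHom p)) 0))

@[reassoc]
lemma grπ_map {F G : ℤᵒᵖ ⥤ A} (α : F ⟶ G) (p : ℤ) :
    grπ F p ≫ (FilD.gr A p).map α = α.app (op p) ≫ grπ G p := by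
  simp [grπ, FilD.gr, cokernel.map]

@[reassoc]
lemma step_grπ (F : ℤᵒᵖ ⥤ A) (p : ℤ) : F.map (FilD.stepHom p) ≫ grπ F p = 0 :=
  cokernel.condition _

lemma grπ_eq_zero_iff (F : ℤᵒᵖ ⥤ A) (p : ℤ) {T : A} (y : T ⟶ F.obj (op p)) :
    y ≫ grπ F p = 0 ↔ ∃ (T' : A) (π : T' ⟶ T) (_ : Epi π) (y₁ : T' ⟶ F.obj (op (p + 1))),
      π ≫ y = y₁ ≫ F.map (FilD.stepHom p) :=
  CokernelCofork.IsColimit.comp_π_eq_zero_iff_up_to_refinements (cokernelIsCokernel _) y

lemma app_comp_app_eq_zero (S : ShortComplex (FilD.FilF A)) (p : ℤᵒᵖ) :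
    S.f.hom.app p ≫ S.g.hom.app p = 0 := by
  rw [← comp_hom_app]; exact hom_app_eq_zero S.zero p

/-- lifting through the graded pieces. -/
lemma gr_lift (S : ShortComplex (FilD.FilF A)) (p : ℤ) (hgr : (S.map (FilD.grF A p)).Exact)
    {T : A} (y : T ⟶ S.X₂.obj.obj (op p)) (hy : y ≫ S.g.hom.app (op p) ≫ grπ S.X₃.obj p = 0) :
    ∃ (T' : A) (π : T' ⟶ T) (_ : Epi π) (x : T' ⟶ S.X₁.obj.obj (op p))
      (y₁ : T' ⟶ S.X₂.obj.obj (op (p + 1))),
      π ≫ y = x ≫ S.f.hom.app (op p) + y₁ ≫ S.X₂.obj.map (FilD.stepHom p) := by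
  have h1 : (y ≫ grπ S.X₂.obj p) ≫ (S.map (FilD.grF A p)).g = 0 := by
    change (y ≫ grπ S.X₂.obj p) ≫ (FilD.gr A p).map S.g.hom = 0
    rw [Category.assoc, grπ_map, hy]
  obtain ⟨T₁, π₁, hπ₁, xb, hxb⟩ := hgr.exact_up_to_refinements _ h1
  let xb' : T₁ ⟶ (FilD.gr A p).obj S.X₁.obj := xb
  have hxb' : π₁ ≫ y ≫ grπ S.X₂.obj p = xb' ≫ (FilD.gr A p).map S.f.hom := hxb
  obtain ⟨T₂, π₂, hπ₂, x, hx⟩ := surjective_up_to_refinements_of_epi (grπ S.X₁.obj p) xb'
  have h2 : (π₂ ≫ π₁ ≫ y - x ≫ S.f.hom.app (op p)) ≫ grπ S.X₂.obj p = 0 := by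
    calc (π₂ ≫ π₁ ≫ y - x ≫ S.f.hom.app (op p)) ≫ grπ S.X₂.obj p
        = π₂ ≫ (π₁ ≫ y ≫ grπ S.X₂.obj p) - x ≫ S.f.hom.app (op p) ≫ grπ S.X₂.obj p := by
          simp [Preadditive.sub_comp]
      _ = π₂ ≫ xb' ≫ (FilD.gr A p).map S.f.hom - x ≫ grπ S.X₁.obj p ≫ (FilD.gr A p).map S.f.hom := by
          rw [hxb', grπ_map]
      _ = 0 := by rw [← Category.assoc π₂, hx, Category.assoc, sub_self]
  obtain ⟨T₃, π₃, hπ₃, y₁, hy₁⟩ := (grπ_eq_zero_iff _ _ _).1 h2
  refine ⟨T₃, π₃ ≫ π₂ ≫ π₁, inferInstance, π₃ ≫ x, y₁, ?_⟩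
  rw [← hy₁, Preadditive.comp_sub]
  simp

/-- exactness at level `p` in refinement form. -/
def LevelExact (S : ShortComplex (FilD.FilF A)) (p : ℤ) : Prop :=
  ∀ ⦃T : A⦄ (y : T ⟶ S.X₂.obj.obj (op p)), y ≫ S.g.hom.app (op p) = 0 →
    ∃ (T' : A) (π : T' ⟶ T) (_ : Epi π) (x : T' ⟶ S.X₁.obj.obj (op p)),
      π ≫ y = x ≫ S.f.hom.app (op p)

lemma levelExact_of_gr (S : ShortComplex (FilD.FilF A)) (hS : ∀ p, (S.map (FilD.grF A p)).Exact) :
    ∀ p, LevelExact S p := by
  obtain ⟨b, hb⟩ := S.X₂.property.2.1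
  have key : ∀ (n : ℕ) (p : ℤ), p = b - n → LevelExact S p := by
    intro n
    induction n with
    | zero =>
      intro p hp T y hy
      refine ⟨T, 𝟙 T, inferInstance, 0, ?_⟩
      rw [zero_comp]
      exact (hb p (by omega)).eq_of_tgt _ _
    | succ n ih =>
      intro p hp T y hy
      have ih' := ih (p + 1) (by push_cast at hp; omega)
      obtain ⟨T₁, π₁, hπ₁, x, y₁, hxy⟩ := gr_lift S p (hS p) y
        (by rw [← Category.assoc, hy, zero_comp])
      have hz := mono_stepHom S.X₃ p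
      have h1 : y₁ ≫ S.g.hom.app (op (p + 1)) = 0 := by
        rw [← cancel_mono (S.X₃.obj.map (FilD.stepHom p)), zero_comp, Category.assoc,
          ← S.g.hom.naturality, ← Category.assoc,
          show y₁ ≫ S.X₂.obj.map (FilD.stepHom p) = π₁ ≫ y - x ≫ S.f.hom.app (op p) by
            rw [hxy]; abel]
        rw [Preadditive.sub_comp, Category.assoc, hy, Category.assoc, app_comp_app_eq_zero]
        simp
      obtain ⟨T₂, π₂, hπ₂, x₁, hx₁⟩ := ih' y₁ h1
      refine ⟨T₂, π₂ ≫ π₁, inferInstance,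
        π₂ ≫ x + x₁ ≫ S.X₁.obj.map (FilD.stepHom p), ?_⟩
      rw [Category.assoc]
      calc π₂ ≫ π₁ ≫ y
          = π₂ ≫ (x ≫ S.f.hom.app (op p) + y₁ ≫ S.X₂.obj.map (FilD.stepHom p)) := by rw [hxy]
        _ = π₂ ≫ x ≫ S.f.hom.app (op p) + (π₂ ≫ y₁) ≫ S.X₂.obj.map (FilD.stepHom p) := by
            simp [Preadditive.comp_add]
        _ = π₂ ≫ x ≫ S.f.hom.app (op p) +
              x₁ ≫ S.f.hom.app (op (p + 1)) ≫ S.X₂.obj.map (FilD.stepHom p) := by
            rw [hx₁, Category.assoc]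
        _ = π₂ ≫ x ≫ S.f.hom.app (op p) +
              x₁ ≫ S.X₁.obj.map (FilD.stepHom p) ≫ S.f.hom.app (op p) := by
            rw [S.f.hom.naturality]
        _ = (π₂ ≫ x + x₁ ≫ S.X₁.obj.map (FilD.stepHom p)) ≫ S.f.hom.app (op p) := by
            simp [Preadditive.add_comp]
  intro p
  by_cases hp : b ≤ p
  · intro T y hy
    refine ⟨T, 𝟙 T, inferInstance, 0, ?_⟩
    rw [zero_comp]
    exact (hb p hp).eq_of_tgt _ _
  · exact key (b - p).toNat p (by omega)

/-- gr-exactness implies levelwise exactness and strictness of both maps (S1085). -/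
theorem levelExact_and_strict_of_gr (S : ShortComplex (FilD.FilF A))
    (hS : ∀ p : ℤ, (S.map (FilD.grF A p)).Exact) :
    (∀ p : ℤ, (S.map ((FilD.IsFinFil A).ι ⋙ (evaluation ℤᵒᵖ A).obj (op p))).Exact) ∧
      FilD.IsStrict S.f ∧ FilD.IsStrict S.g := by
  have hL := levelExact_of_gr S hS
  refine ⟨fun p => ?_, ?_, ?_⟩
  · rw [ShortComplex.exact_iff_exact_up_to_refinements]
    intro T y hy
    exact hL p y hy
  · rw [isStrict_iff]
    intro p T s x hsx
    have hz := mono_stepHom S.X₃ p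
    apply hL (p + 1) s
    rw [← cancel_mono (S.X₃.obj.map (FilD.stepHom p)), zero_comp, Category.assoc,
      ← S.g.hom.naturality]
    change s ≫ tr S.X₂.obj _ ≫ _ = 0
    rw [← Category.assoc, hsx, Category.assoc, app_comp_app_eq_zero, comp_zero]
  · rw [isStrict_iff]
    intro p T s y hsy
    have hz := mono_stepHom S.X₃ p
    obtain ⟨T₁, π₁, hπ₁, x, y₁, hxy⟩ := gr_lift S p (hS p) y (by
      rw [← Category.assoc, ← hsy, Category.assoc]
      change s ≫ S.X₃.obj.map (FilD.stepHom p) ≫ grπ S.X₃.obj p = 0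
      rw [step_grπ, comp_zero])
    refine ⟨T₁, π₁, hπ₁, y₁, ?_⟩
    rw [← cancel_mono (S.X₃.obj.map (FilD.stepHom p)), Category.assoc, Category.assoc,
      ← S.g.hom.naturality, ← Category.assoc y₁,
      show y₁ ≫ S.X₂.obj.map (FilD.stepHom p) = π₁ ≫ y - x ≫ S.f.hom.app (op p) by
        rw [hxy]; abel]
    rw [Preadditive.sub_comp, Category.assoc, Category.assoc, app_comp_app_eq_zero, comp_zero,
      sub_zero]
    change π₁ ≫ s ≫ tr S.X₃.obj _ = π₁ ≫ y ≫ S.g.hom.app (op p)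
    rw [hsy]


/-- strictness is equivalent to exactness of `gr^p (ker φ) → gr^p X → gr^p Y` (S1086). -/
theorem isStrict_iff_gr_kernel_exact {X Y : FilD.FilF A} (φ : X ⟶ Y) :
    FilD.IsStrict φ ↔
      ∀ p : ℤ, ((ShortComplex.mk (kernel.ι φ.hom) φ.hom (kernel.condition φ.hom)).map
        (FilD.gr A p)).Exact := by
  rw [isStrict_iff]
  constructor
  · intro hφ p
    rw [ShortComplex.exact_iff_exact_up_to_refinements]
    intro T xb0 hxb0
    let xb : T ⟶ (FilD.gr A p).obj X.obj := xb0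
    have hxb : xb ≫ (FilD.gr A p).map φ.hom = 0 := hxb0
    obtain ⟨T₁, π₁, hπ₁, x, hx⟩ := surjective_up_to_refinements_of_epi (grπ X.obj p) xb
    have h1 : (x ≫ φ.hom.app (op p)) ≫ grπ Y.obj p = 0 := by
      rw [Category.assoc, ← grπ_map, ← Category.assoc, ← hx, Category.assoc, hxb, comp_zero]
    obtain ⟨T₂, π₂, hπ₂, s, hs⟩ := (grπ_eq_zero_iff _ _ _).1 h1
    obtain ⟨T₃, π₃, hπ₃, x', hx'⟩ := hφ p s (π₂ ≫ x) (by rw [Category.assoc]; exact hs.symm)
    have h2 : (π₃ ≫ π₂ ≫ x - x' ≫ X.obj.map (FilD.stepHom p)) ≫ φ.hom.app (op p) = 0 := by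
      calc (π₃ ≫ π₂ ≫ x - x' ≫ X.obj.map (FilD.stepHom p)) ≫ φ.hom.app (op p)
          = π₃ ≫ (π₂ ≫ x ≫ φ.hom.app (op p)) -
              x' ≫ X.obj.map (FilD.stepHom p) ≫ φ.hom.app (op p) := by
            simp [Preadditive.sub_comp]
        _ = (π₃ ≫ s) ≫ Y.obj.map (FilD.stepHom p) -
              x' ≫ φ.hom.app (op (p + 1)) ≫ Y.obj.map (FilD.stepHom p) := by
            rw [hs, φ.hom.naturality, Category.assoc]
        _ = 0 := by rw [hx', Category.assoc, sub_self]
    obtain ⟨k, hk⟩ := exists_kernel_lift φ.hom (op p) _ h2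
    refine ⟨T₃, π₃ ≫ π₂ ≫ π₁, inferInstance, k ≫ grπ (kernel φ.hom) p, ?_⟩
    change (π₃ ≫ π₂ ≫ π₁) ≫ xb =
      (k ≫ grπ (kernel φ.hom) p) ≫ (FilD.gr A p).map (kernel.ι φ.hom)
    calc (π₃ ≫ π₂ ≫ π₁) ≫ xb = π₃ ≫ π₂ ≫ (π₁ ≫ xb) := by simp only [Category.assoc]
      _ = π₃ ≫ π₂ ≫ x ≫ grπ X.obj p := by rw [hx]
      _ = (π₃ ≫ π₂ ≫ x - x' ≫ X.obj.map (FilD.stepHom p)) ≫ grπ X.obj p := by
          rw [Preadditive.sub_comp, Category.assoc x', step_grπ, comp_zero, sub_zero]
          simp only [Category.assoc]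
      _ = (k ≫ (kernel.ι φ.hom).app (op p)) ≫ grπ X.obj p := by rw [hk]
      _ = (k ≫ grπ (kernel φ.hom) p) ≫ (FilD.gr A p).map (kernel.ι φ.hom) := by
          rw [Category.assoc, Category.assoc, grπ_map]
  · intro hex p T s x hsx
    have h1 : (x ≫ grπ X.obj p) ≫ (FilD.gr A p).map φ.hom = 0 := by
      rw [Category.assoc, grπ_map, ← Category.assoc, ← hsx, Category.assoc]
      change s ≫ Y.obj.map (FilD.stepHom p) ≫ grπ Y.obj p = 0
      rw [step_grπ, comp_zero]
    obtain ⟨T₁, π₁, hπ₁, kb0, hkb0⟩ := (hex p).exact_up_to_refinements (x ≫ grπ X.obj p) h1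
    let kb : T₁ ⟶ (FilD.gr A p).obj (kernel φ.hom) := kb0
    have hkb : π₁ ≫ x ≫ grπ X.obj p = kb ≫ (FilD.gr A p).map (kernel.ι φ.hom) := hkb0
    obtain ⟨T₂, π₂, hπ₂, k, hk⟩ := surjective_up_to_refinements_of_epi (grπ (kernel φ.hom) p) kb
    have h2 : (π₂ ≫ π₁ ≫ x - k ≫ (kernel.ι φ.hom).app (op p)) ≫ grπ X.obj p = 0 := by
      calc (π₂ ≫ π₁ ≫ x - k ≫ (kernel.ι φ.hom).app (op p)) ≫ grπ X.obj p
          = π₂ ≫ (π₁ ≫ x ≫ grπ X.obj p) -
              k ≫ (kernel.ι φ.hom).app (op p) ≫ grπ X.obj p := by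
            simp [Preadditive.sub_comp]
        _ = π₂ ≫ kb ≫ (FilD.gr A p).map (kernel.ι φ.hom) -
              k ≫ grπ (kernel φ.hom) p ≫ (FilD.gr A p).map (kernel.ι φ.hom) := by
            rw [hkb, grπ_map]
        _ = 0 := by rw [← Category.assoc π₂, hk, Category.assoc, sub_self]
    obtain ⟨T₃, π₃, hπ₃, x', hx'⟩ := (grπ_eq_zero_iff _ _ _).1 h2
    refine ⟨T₃, π₃ ≫ π₂ ≫ π₁, inferInstance, x', ?_⟩
    have hm := mono_stepHom Y p
    have hsx' : s ≫ Y.obj.map (FilD.stepHom p) = x ≫ φ.hom.app (op p) := hsx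
    rw [← cancel_mono (Y.obj.map (FilD.stepHom p))]
    calc ((π₃ ≫ π₂ ≫ π₁) ≫ s) ≫ Y.obj.map (FilD.stepHom p)
        = π₃ ≫ π₂ ≫ π₁ ≫ x ≫ φ.hom.app (op p) := by simp only [Category.assoc]; rw [hsx']
      _ = π₃ ≫ (π₂ ≫ π₁ ≫ x - k ≫ (kernel.ι φ.hom).app (op p)) ≫ φ.hom.app (op p) := by
          rw [Preadditive.sub_comp, Category.assoc k, kernel_app_comp, comp_zero, sub_zero]
          simp only [Category.assoc]
      _ = (x' ≫ X.obj.map (FilD.stepHom p)) ≫ φ.hom.app (op p) := by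
          rw [← Category.assoc π₃, hx']
      _ = (x' ≫ φ.hom.app (op (p + 1))) ≫ Y.obj.map (FilD.stepHom p) := by
          rw [Category.assoc, φ.hom.naturality, Category.assoc]


/-! ### Complexes of filtered objects: null-homotopies -/

section Homotopy

/-- gr-exactness of the short complexes of a filtered acyclic complex. -/
lemma gr_sc'_exact (K : CochainComplex (FilD.FilF A) ℤ) (hK : FilD.IsFilteredAcyclic K)
    (i j k : ℤ) (hij : i + 1 = j) (hjk : j + 1 = k) (p : ℤ) :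
    ((K.sc' i j k).map (FilD.grF A p)).Exact := by
  have := hK p j
  rw [HomologicalComplex.exactAt_iff' _ i j k (by simp; omega) (by simp; omega)] at this
  exact this

variable {K I : CochainComplex (FilD.FilF A) ℤ}

/-- state of the recursive construction of a null-homotopy. -/
structure HState (φ : K ⟶ I) where
  j : ℤ
  v : K.X (j + 1) ⟶ I.X j
  pre : K.d j (j + 1) ≫ (φ.f (j + 1) - v ≫ I.d j (j + 1)) = 0

variable (hK : FilD.IsFilteredAcyclic K) (hI : ∀ n, FilD.IsFilteredInjective (I.X n))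
  (φ : K ⟶ I)

include hK hI in
lemma HState.exists_next (st : HState φ) :
    ∃ v' : K.X (st.j + 1 + 1) ⟶ I.X (st.j + 1),
      K.d (st.j + 1) (st.j + 1 + 1) ≫ v' = φ.f (st.j + 1) - st.v ≫ I.d st.j (st.j + 1) := by
  have hgr := gr_sc'_exact K hK st.j (st.j + 1) (st.j + 1 + 1) rfl rfl
  have hL := levelExact_of_gr _ hgr
  have hstr := (levelExact_and_strict_of_gr _ hgr).2.2
  exact exists_ext (K.d st.j (st.j + 1)) (K.d (st.j + 1) (st.j + 1 + 1))
    (fun p T x hx => hL p x hx) hstr (hI _) _ st.pre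

/-- the next state. -/
noncomputable def HState.next (st : HState φ) : HState φ where
  j := st.j + 1
  v := Classical.choose (st.exists_next hK hI φ)
  pre := by
    have hv := Classical.choose_spec (st.exists_next hK hI φ)
    rw [Preadditive.comp_sub, ← Category.assoc, hv, ← φ.comm (st.j + 1) (st.j + 1 + 1),
      Preadditive.sub_comp, Category.assoc, I.d_comp_d, comp_zero, sub_zero, sub_self]

lemma HState.next_j (st : HState φ) : (st.next hK hI φ).j = st.j + 1 := rfl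

lemma HState.next_spec (st : HState φ) :
    K.d (st.j + 1) (st.j + 1 + 1) ≫ (st.next hK hI φ).v =
      φ.f (st.j + 1) - st.v ≫ I.d st.j (st.j + 1) :=
  Classical.choose_spec (st.exists_next hK hI φ)

variable (a : ℤ) [I.IsStrictlyGE a]

/-- the initial state. -/
noncomputable def HState.start : HState φ where
  j := a - 1
  v := 0
  pre := by
    rw [zero_comp, sub_zero, ← φ.comm (a - 1) (a - 1 + 1)]
    rw [(CochainComplex.isZero_of_isStrictlyGE I a (a - 1) (by omega)).eq_of_tgt (φ.f (a - 1)) 0,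
      zero_comp]

/-- the sequence of states. -/
noncomputable def hseq : ℕ → HState φ := fun m =>
  Nat.rec (motive := fun _ => HState φ) (HState.start φ a) (fun _ st => st.next hK hI φ) m

lemma hseq_succ (m : ℕ) : hseq hK hI φ a (m + 1) = (hseq hK hI φ a m).next hK hI φ := rfl

lemma hseq_j (m : ℕ) : (hseq hK hI φ a m).j = a - 1 + m := by
  induction m with
  | zero => simp [hseq, HState.start]
  | succ m ih => rw [hseq_succ, HState.next_j, ih]; push_cast; omega

/-- transport of a homotopy component. -/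
noncomputable def tv {j₀ j i : ℤ} (e : j₀ = j) (r : j + 1 = i) (v : K.X (j₀ + 1) ⟶ I.X j₀) :
    K.X i ⟶ I.X j :=
  (K.XIsoOfEq (by omega : i = j₀ + 1)).hom ≫ v ≫ (I.XIsoOfEq e).hom

/-- the homotopy components. -/
noncomputable def hom (i j : ℤ) (r : j + 1 = i) : K.X i ⟶ I.X j :=
  if hj : a - 1 ≤ j then
    tv (show (hseq hK hI φ a (j - (a - 1)).toNat).j = j by rw [hseq_j]; omega) r
      (hseq hK hI φ a (j - (a - 1)).toNat).v
  else 0

lemma hom_eq (i j : ℤ) (r : j + 1 = i) (m : ℕ) (e : (hseq hK hI φ a m).j = j) :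
    hom hK hI φ a i j r = tv e r (hseq hK hI φ a m).v := by
  have hm : m = (j - (a - 1)).toNat := by rw [hseq_j] at e; omega
  subst hm
  have hj : a - 1 ≤ j := by rw [hseq_j] at e; omega
  simp only [hom, dif_pos hj]

omit [I.IsStrictlyGE a] in
lemma comm_aux (st : HState φ) (e1 : (st.next hK hI φ).j = st.j + 1)
    (r1 : st.j + 1 + 1 = st.j + 1 + 1) (e2 : st.j = st.j + 1 - 1) (r2 : st.j + 1 - 1 + 1 = st.j + 1) :
    φ.f (st.j + 1) = K.d (st.j + 1) (st.j + 1 + 1) ≫ tv e1 r1 (st.next hK hI φ).v +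
      tv e2 r2 st.v ≫ I.d (st.j + 1 - 1) (st.j + 1) := by
  have hs := HState.next_spec hK hI φ st
  change φ.f (st.j + 1) = K.d (st.j + 1) (st.j + 1 + 1) ≫
      ((K.XIsoOfEq (rfl : st.j + 1 + 1 = st.j + 1 + 1)).hom ≫ (st.next hK hI φ).v ≫
        (I.XIsoOfEq (rfl : st.j + 1 = st.j + 1)).hom) +
      ((K.XIsoOfEq (rfl : st.j + 1 = st.j + 1)).hom ≫ st.v ≫ (I.XIsoOfEq e2).hom) ≫
        I.d (st.j + 1 - 1) (st.j + 1)
  rw [HomologicalComplex.XIsoOfEq_rfl, HomologicalComplex.XIsoOfEq_rfl,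
    HomologicalComplex.XIsoOfEq_rfl]
  simp only [Iso.refl_hom]
  erw [Category.id_comp, Category.comp_id, Category.id_comp]
  rw [Category.assoc, HomologicalComplex.XIsoOfEq_hom_comp_d]
  erw [hs]
  abel

include hK hI a in
theorem nullHomotopic_of_filteredAcyclic' : Nonempty (Homotopy φ 0) := by
  let h : ∀ i j, (ComplexShape.up ℤ).Rel j i → (K.X i ⟶ I.X j) := fun i j r => hom hK hI φ a i j r
  have key : φ = Homotopy.nullHomotopicMap' h := by
    refine HomologicalComplex.hom_ext _ _ (fun i => ?_)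
    rw [Homotopy.nullHomotopicMap'_f (show (ComplexShape.up ℤ).Rel (i - 1) i by simp)
      (show (ComplexShape.up ℤ).Rel i (i + 1) by simp)]
    by_cases hi : i < a
    · exact (CochainComplex.isZero_of_isStrictlyGE I a i hi).eq_of_tgt _ _
    · obtain ⟨m, hm⟩ : ∃ m : ℕ, (hseq hK hI φ a m).j = i - 1 :=
        ⟨(i - a).toNat, by rw [hseq_j]; omega⟩
      have h1 : h (i + 1) i (by simp) = tv (show ((hseq hK hI φ a m).next hK hI φ).j = i by
          rw [HState.next_j, hm]; omega) (by simp) ((hseq hK hI φ a m).next hK hI φ).v :=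
        hom_eq hK hI φ a (i + 1) i _ (m + 1) (by rw [hseq_j]; rw [hseq_j] at hm; push_cast; omega)
      have h2 : h i (i - 1) (by simp) = tv hm (by simp) (hseq hK hI φ a m).v :=
        hom_eq hK hI φ a _ _ _ _ _
      rw [h1, h2]
      generalize hseq hK hI φ a m = st at hm ⊢
      obtain rfl : i = st.j + 1 := by omega
      exact comm_aux hK hI φ st _ _ _ _
  rw [key]
  exact ⟨(Homotopy.nullHomotopy' h)⟩

end Homotopy

theorem nullHomotopic_of_filteredAcyclic {K I : CochainComplex (FilD.FilF A) ℤ}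
    (hK : FilD.IsFilteredAcyclic K) (a : ℤ) [I.IsStrictlyGE a]
    (hI : ∀ n, FilD.IsFilteredInjective (I.X n)) (φ : K ⟶ I) : Nonempty (Homotopy φ 0) :=
  nullHomotopic_of_filteredAcyclic' hK hI φ a


/-! ### Binary biproducts of finite filtered objects -/

section Biprod

/-- levelwise binary biproduct of functors. -/
noncomputable abbrev biprodF (F G : ℤᵒᵖ ⥤ A) : ℤᵒᵖ ⥤ A where
  obj p := F.obj p ⊞ G.obj p
  map f := biprod.map (F.map f) (G.map f)
  map_id p := by ext <;> simp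
  map_comp f g := by ext <;> simp

lemma isFinFil_biprodF (X Y : FilD.FilF A) : FilD.IsFinFil A (biprodF X.obj Y.obj) := by
  refine ⟨fun p q f => ?_, ?_, ?_⟩
  · have := X.property.1 f
    have := Y.property.1 f
    show Mono (biprod.map (X.obj.map f) (Y.obj.map f))
    infer_instance
  · obtain ⟨b1, hb1⟩ := X.property.2.1
    obtain ⟨b2, hb2⟩ := Y.property.2.1
    refine ⟨max b1 b2, fun p hp => ?_⟩
    show IsZero (X.obj.obj (op p) ⊞ Y.obj.obj (op p))
    rw [biprod_isZero_iff]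
    exact ⟨hb1 p (le_trans (le_max_left _ _) hp), hb2 p (le_trans (le_max_right _ _) hp)⟩
  · obtain ⟨a1, ha1⟩ := X.property.2.2
    obtain ⟨a2, ha2⟩ := Y.property.2.2
    refine ⟨min a1 a2, fun p q f hp => ?_⟩
    have := ha1 f (hp.trans (min_le_left _ _))
    have := ha2 f (hp.trans (min_le_right _ _))
    show IsIso (biprod.map (X.obj.map f) (Y.obj.map f))
    exact (biprod.mapIso (asIso (X.obj.map f)) (asIso (Y.obj.map f))).isIso_hom

/-- the biproduct object in `FilF A`. -/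
noncomputable abbrev biprodObj (X Y : FilD.FilF A) : FilD.FilF A :=
  ⟨biprodF X.obj Y.obj, isFinFil_biprodF X Y⟩

/-- the biproduct bicone in `FilF A`. -/
noncomputable def biprodBicone (X Y : FilD.FilF A) : BinaryBicone X Y where
  pt := biprodObj X Y
  fst := ObjectProperty.homMk
    { app := fun p => (biprod.fst : X.obj.obj p ⊞ Y.obj.obj p ⟶ _)
      naturality := by intros; exact biprod.map_fst _ _ }
  snd := ObjectProperty.homMk
    { app := fun p => (biprod.snd : X.obj.obj p ⊞ Y.obj.obj p ⟶ _)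
      naturality := by intros; exact biprod.map_snd _ _ }
  inl := ObjectProperty.homMk
    { app := fun p => (biprod.inl : _ ⟶ X.obj.obj p ⊞ Y.obj.obj p)
      naturality := by intros; exact (biprod.inl_map _ _).symm }
  inr := ObjectProperty.homMk
    { app := fun p => (biprod.inr : _ ⟶ X.obj.obj p ⊞ Y.obj.obj p)
      naturality := by intros; exact (biprod.inr_map _ _).symm }
  inl_fst := by ext; exact biprod.inl_fst
  inl_snd := by ext; exact biprod.inl_snd
  inr_fst := by ext; exact biprod.inr_fst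
  inr_snd := by ext; exact biprod.inr_snd

instance (X Y : FilD.FilF A) : HasBinaryBiproduct X Y :=
  hasBinaryBiproduct_of_total (biprodBicone X Y) (by
    ext p
    exact biprod.total)

instance : HasBinaryBiproducts (FilD.FilF A) := ⟨fun _ _ => inferInstance⟩

end Biprod


/-! ### Homotopy classes of maps into bounded below complexes of filtered injectives -/

section HomotopyClasses

open Pretriangulated

lemma exactAt_of_iso {K L : CochainComplex A ℤ} (e : K ≅ L) (n : ℤ) (h : K.ExactAt n) :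
    L.ExactAt n := by
  rw [HomologicalComplex.exactAt_iff] at h ⊢
  exact (ShortComplex.exact_iff_of_iso
    ((HomologicalComplex.shortComplexFunctor A (ComplexShape.up ℤ) n).mapIso e)).1 h

/-- the mapping cone of a quasi-isomorphism of complexes in an abelian category is acyclic. -/
lemma mappingCone_exactAt_of_quasiIso {K L : CochainComplex A ℤ} (ψ : K ⟶ L) [QuasiIso ψ]
    (n : ℤ) : (CochainComplex.mappingCone ψ).ExactAt n := by
  have h1 : HomotopyCategory.quasiIso A (ComplexShape.up ℤ)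
      ((HomotopyCategory.quotient A (ComplexShape.up ℤ)).map ψ) := by
    rw [HomotopyCategory.quotient_map_mem_quasiIso_iff]
    exact (inferInstance : QuasiIso ψ)
  rw [HomotopyCategory.quasiIso_eq_trW_subcategoryAcyclic] at h1
  have h2 := ((HomotopyCategory.subcategoryAcyclic A).trW_iff_of_distinguished _
    (HomotopyCategory.mappingCone_triangleh_distinguished ψ)).1 h1
  exact (HomotopyCategory.quotient_obj_mem_subcategoryAcyclic_iff_exactAt _).1 h2 n

/-- the mapping cone of a filtered quasi-isomorphism is filtered acyclic. -/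
lemma filteredAcyclic_mappingCone {K L : CochainComplex (FilD.FilF A) ℤ} (α : K ⟶ L)
    (hα : FilD.IsFilteredQuasiIso α) : FilD.IsFilteredAcyclic (CochainComplex.mappingCone α) := by
  intro p n
  have := hα p
  exact exactAt_of_iso (CochainComplex.mappingCone.mapHomologicalComplexIso α (FilD.grF A p)).symm n
    (mappingCone_exactAt_of_quasiIso _ n)

lemma homotopy_hom_eq_zero {I : CochainComplex (FilD.FilF A) ℤ} (a : ℤ) [I.IsStrictlyGE a]
    (hI : ∀ n, FilD.IsFilteredInjective (I.X n))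
    {Z : CochainComplex (FilD.FilF A) ℤ} (hZ : FilD.IsFilteredAcyclic Z)
    (f : (HomotopyCategory.quotient (FilD.FilF A) (ComplexShape.up ℤ)).obj Z ⟶
      (HomotopyCategory.quotient (FilD.FilF A) (ComplexShape.up ℤ)).obj I) : f = 0 := by
  obtain ⟨f', rfl⟩ := (HomotopyCategory.quotient (FilD.FilF A) (ComplexShape.up ℤ)).map_surjective f
  obtain ⟨H⟩ := nullHomotopic_of_filteredAcyclic hZ a hI f'
  rw [HomotopyCategory.eq_of_homotopy f' 0 H, Functor.map_zero]

lemma homotopy_hom_shift_eq_zero {I : CochainComplex (FilD.FilF A) ℤ} (a : ℤ) [I.IsStrictlyGE a]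
    (hI : ∀ n, FilD.IsFilteredInjective (I.X n)) {Z : CochainComplex (FilD.FilF A) ℤ}
    (hZ : FilD.IsFilteredAcyclic Z)
    (f : ((HomotopyCategory.quotient (FilD.FilF A) (ComplexShape.up ℤ)).obj Z)⟦(-1 : ℤ)⟧ ⟶
      (HomotopyCategory.quotient (FilD.FilF A) (ComplexShape.up ℤ)).obj I) : f = 0 := by
  let Q := HomotopyCategory.quotient (FilD.FilF A) (ComplexShape.up ℤ)
  have : (I⟦(1 : ℤ)⟧).IsStrictlyGE (a - 1) := I.isStrictlyGE_shift a 1 (a - 1) (by omega)
  have hI' : ∀ n, FilD.IsFilteredInjective ((I⟦(1 : ℤ)⟧).X n) := fun n => hI (n + 1)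
  let g : Q.obj Z ⟶ Q.obj (I⟦(1 : ℤ)⟧) :=
    (shiftFunctorCompIsoId _ (-1 : ℤ) 1 (by omega)).inv.app (Q.obj Z) ≫ f⟦(1 : ℤ)⟧' ≫
      ((Q.commShiftIso (1 : ℤ)).app I).inv
  have hg : g = 0 := homotopy_hom_eq_zero (a - 1) hI' hZ g
  have hf1 : f⟦(1 : ℤ)⟧' = 0 := by
    have : f⟦(1 : ℤ)⟧' = (shiftFunctorCompIsoId _ (-1 : ℤ) 1 (by omega)).hom.app (Q.obj Z) ≫ g ≫
        ((Q.commShiftIso (1 : ℤ)).app I).hom := by
      simp only [g, Category.assoc, Iso.inv_hom_id, Category.comp_id, Iso.hom_inv_id_app_assoc]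
    rw [this, hg, zero_comp, comp_zero]
  apply (shiftFunctor _ (1 : ℤ)).map_injective
  rw [hf1, Functor.map_zero]

/-- precomposition with a filtered quasi-isomorphism is bijective on homotopy classes of maps into a
bounded below complex of filtered injective objects (S1084). -/
theorem bijective_precomp_of_filteredQuasiIso {I : CochainComplex (FilD.FilF A) ℤ} (a : ℤ)
    [I.IsStrictlyGE a] (hI : ∀ n, FilD.IsFilteredInjective (I.X n))
    {K L : CochainComplex (FilD.FilF A) ℤ} (α : K ⟶ L)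
    (hα : FilD.IsFilteredQuasiIso α) :
    Function.Bijective (fun β : (HomotopyCategory.quotient (FilD.FilF A) (ComplexShape.up ℤ)).obj L ⟶
        (HomotopyCategory.quotient (FilD.FilF A) (ComplexShape.up ℤ)).obj I =>
      (HomotopyCategory.quotient (FilD.FilF A) (ComplexShape.up ℤ)).map α ≫ β) := by
  have hC := filteredAcyclic_mappingCone α hα
  have hT := HomotopyCategory.mappingCone_triangleh_distinguished α
  constructor
  · intro β₁ β₂ h
    dsimp only at h
    have h0 : (CochainComplex.mappingCone.triangleh α).mor₁ ≫ (β₁ - β₂) = 0 := by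
      show (HomotopyCategory.quotient (FilD.FilF A) (ComplexShape.up ℤ)).map α ≫ (β₁ - β₂) = 0
      rw [Preadditive.comp_sub, sub_eq_zero]; exact h
    obtain ⟨g, hg⟩ := Triangle.yoneda_exact₂ _ hT (β₁ - β₂) h0
    have hg0 : g = 0 := homotopy_hom_eq_zero a hI hC g
    have h3 : β₁ - β₂ = 0 := hg.trans (by rw [hg0]; exact comp_zero)
    exact sub_eq_zero.mp h3
  · intro β
    have hT' := inv_rot_of_distTriang _ hT
    obtain ⟨g, hg⟩ := Triangle.yoneda_exact₂ _ hT' β
      (homotopy_hom_shift_eq_zero a hI hC _)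
    exact ⟨g, hg.symm⟩

end HomotopyClasses


/-- homotopic maps from a single complex in degree `0` to a complex strictly `≥ 0` are equal. -/
lemma eq_of_homotopy_single {C : Type*} [Category C] [Preadditive C] [HasZeroObject C]
    {X : C} {J : CochainComplex C ℤ} [J.IsStrictlyGE 0]
    {u w : (CochainComplex.singleFunctor C 0).obj X ⟶ J} (H : Homotopy u w) : u = w := by
  apply HomologicalComplex.from_single_hom_ext
  rw [H.comm 0]
  have h1 : dNext 0 H.hom = 0 := by
    rw [dNext_eq H.hom (show (ComplexShape.up ℤ).Rel 0 1 by simp)]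
    rw [(HomologicalComplex.isZero_single_obj_X (ComplexShape.up ℤ) 0 X 1 (by simp)).eq_of_src
      (H.hom 1 0) 0]
    exact comp_zero
  have h2 : prevD 0 H.hom = 0 := by
    rw [prevD_eq H.hom (show (ComplexShape.up ℤ).Rel (-1) 0 by simp)]
    rw [(CochainComplex.isZero_of_isStrictlyGE J 0 (-1) (by omega)).eq_of_tgt (H.hom 0 (-1)) 0,
      zero_comp]
  rw [h1, h2, zero_add, zero_add]

/-- comparison of filtered injective resolutions (S1090). -/
theorem exists_comparison {X Y : FilD.FilF A} (f : X ⟶ Y)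
    (I : CochainComplex (FilD.FilF A) ℤ)
    (a : (CochainComplex.singleFunctor (FilD.FilF A) 0).obj X ⟶ I) (ha : FilD.IsFilteredQuasiIso a)
    (J : CochainComplex (FilD.FilF A) ℤ) [J.IsStrictlyGE 0] (hJ : ∀ n, FilD.IsFilteredInjective (J.X n))
    (b : (CochainComplex.singleFunctor (FilD.FilF A) 0).obj Y ⟶ J) :
    ∃ φ : I ⟶ J, a ≫ φ = (CochainComplex.singleFunctor (FilD.FilF A) 0).map f ≫ b := by
  let Q := HomotopyCategory.quotient (FilD.FilF A) (ComplexShape.up ℤ)
  obtain ⟨φb, hφb⟩ := (bijective_precomp_of_filteredQuasiIso 0 hJ a ha).2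
    (Q.map ((CochainComplex.singleFunctor (FilD.FilF A) 0).map f ≫ b))
  obtain ⟨φ, rfl⟩ := Q.map_surjective φb
  refine ⟨φ, eq_of_homotopy_single (HomotopyCategory.homotopyOfEq _ _ ?_)⟩
  rw [Functor.map_comp]
  exact hφb

end Groth.Agent.Lib.Helper2.FilDLib
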