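import Mathlib.AlgebraicGeometry.Morphisms.Flat
import Mathlib.RingTheory.Flat.FaithfullyFlat.Algebra
import Mathlib.RingTheory.Flat.Stability

/-!
# Flatness descends along faithfully flat maps on the source (helper2)

* `flat_of_faithfullyFlat_tower`: `R → S → T`, `T` faithfully flat over `S` and flat over `R`
  implies `S` flat over `R`.
* `flat_of_comp_of_surjective`: if `f` is flat surjective and `f ≫ g` is flat then `g` is flat.
-/

set_option autoImplicit false

universe u

open CategoryTheory AlgebraicGeometry TensorProduct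

namespace Groth.Agent.Lib.Helper2

theorem flat_of_faithfullyFlat_tower (R S T : Type*) [CommRing R] [CommRing S] [CommRing T]
    [Algebra R S] [Algebra S T] [Algebra R T] [IsScalarTower R S T]
    [Module.FaithfullyFlat S T] [Module.Flat R T] : Module.Flat R S := by
  rw [Module.Flat.iff_lTensor_preserves_injective_linearMap]
  intro N P _ _ _ _ f hf
  have hT : Function.Injective (LinearMap.lTensor T f) :=
    Module.Flat.lTensor_preserves_injective_linearMap f hf
  have hcomm : ∀ x : T ⊗[S] (S ⊗[R] N),
      AlgebraTensorModule.cancelBaseChange R S T T P (LinearMap.lTensor T (f.baseChange S) x) =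
        LinearMap.lTensor T f (AlgebraTensorModule.cancelBaseChange R S T T N x) := by
    intro x
    induction x using TensorProduct.induction_on with
    | zero => simp
    | tmul t y =>
      induction y using TensorProduct.induction_on with
      | zero => simp
      | tmul s n => simp [AlgebraTensorModule.cancelBaseChange_tmul]
      | add y₁ y₂ h₁ h₂ =>
        simp only [TensorProduct.tmul_add, map_add] at h₁ h₂ ⊢
        rw [h₁, h₂]
    | add x₁ x₂ h₁ h₂ => simp only [map_add, h₁, h₂]
  have hinj : Function.Injective (LinearMap.lTensor T (f.baseChange S)) := by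
    intro x y hxy
    apply (AlgebraTensorModule.cancelBaseChange R S T T N).injective
    apply hT
    rw [← hcomm, ← hcomm, hxy]
  have := (Module.FaithfullyFlat.lTensor_injective_iff_injective S T (f.baseChange S)).mp hinj
  rwa [LinearMap.baseChange_eq_ltensor] at this

theorem ringHom_flat_of_comp {R S T : Type*} [CommRing R] [CommRing S] [CommRing T]
    [IsLocalRing S] [IsLocalRing T]
    (φ : R →+* S) (ψ : S →+* T) [IsLocalHom ψ] (hψ : ψ.Flat) (h : (ψ.comp φ).Flat) : φ.Flat := by
  let := φ.toAlgebra
  let := ψ.toAlgebra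
  let := (ψ.comp φ).toAlgebra
  have : IsScalarTower R S T := IsScalarTower.of_algebraMap_eq (fun _ => rfl)
  have : Module.Flat S T := hψ
  have : Module.Flat R T := h
  have : IsLocalHom (algebraMap S T) := ‹IsLocalHom ψ›
  have : Module.FaithfullyFlat S T := Module.FaithfullyFlat.of_flat_of_isLocalHom
  exact flat_of_faithfullyFlat_tower R S T

/-- `R → S → T → U` with `T` flat over `R` and `U` flat over `S`: then `U` is flat over `R`
(as a retract of `T ⊗[S] U`). -/
theorem ringHom_flat_comp_of_retract {R S T U : Type u} [CommRing R] [CommRing S] [CommRing T]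
    [CommRing U] (φ : R →+* S) (ψ : S →+* T) (χ : T →+* U) (h₁ : (ψ.comp φ).Flat)
    (h₂ : (χ.comp ψ).Flat) : ((χ.comp ψ).comp φ).Flat := by
  letI := φ.toAlgebra
  letI := ψ.toAlgebra
  letI := χ.toAlgebra
  letI : Algebra R T := (ψ.comp φ).toAlgebra
  letI : Algebra S U := (χ.comp ψ).toAlgebra
  letI : Algebra R U := ((χ.comp ψ).comp φ).toAlgebra
  haveI : IsScalarTower R S T := IsScalarTower.of_algebraMap_eq (fun _ => rfl)
  haveI : IsScalarTower S T U := IsScalarTower.of_algebraMap_eq (fun _ => rfl)
  haveI : IsScalarTower R S U := IsScalarTower.of_algebraMap_eq (fun _ => rfl)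
  haveI : IsScalarTower R T U := IsScalarTower.of_algebraMap_eq (fun _ => rfl)
  haveI : Module.Flat R T := h₁
  haveI : Module.Flat S U := h₂
  haveI : Module.Flat T (T ⊗[S] U) := inferInstance
  haveI : Module.Flat R (T ⊗[S] U) := Module.Flat.trans R T (T ⊗[S] U)
  let i : U →ₗ[R] T ⊗[S] U :=
    ((Algebra.TensorProduct.includeRight : U →ₐ[S] T ⊗[S] U).restrictScalars R).toLinearMap
  let r : T ⊗[S] U →ₗ[R] U :=
    ((Algebra.TensorProduct.productMap (IsScalarTower.toAlgHom S T U)
      (AlgHom.id S U)).restrictScalars R).toLinearMap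
  have hri : r.comp i = LinearMap.id := by
    ext u; simp [r, i]
  exact Module.Flat.of_retract i r hri

theorem ringHom_flat_of_comp_of_comp {R S T U : Type u} [CommRing R] [CommRing S] [CommRing T]
    [CommRing U] [IsLocalRing S] [IsLocalRing U]
    (φ : R →+* S) (ψ : S →+* T) (χ : T →+* U) [IsLocalHom (χ.comp ψ)]
    (h₁ : (ψ.comp φ).Flat) (h₂ : (χ.comp ψ).Flat) : φ.Flat :=
  ringHom_flat_of_comp φ (χ.comp ψ) h₂ (ringHom_flat_comp_of_retract φ ψ χ h₁ h₂)

theorem flat_of_comp_of_surjective {X' X Y : Scheme.{u}} (f : X' ⟶ X) (g : X ⟶ Y) [Flat f]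
    [Surjective f] [Flat (f ≫ g)] : Flat g := by
  rw [Flat.iff_flat_stalkMap]
  intro x
  obtain ⟨x', rfl⟩ := f.surjective x
  have h1 := Flat.stalkMap f x'
  have h2 : ((f.stalkMap x').hom.comp (g.stalkMap (f x')).hom).Flat := by
    have e := Scheme.Hom.stalkMap_comp f g x'
    have := Flat.stalkMap (f ≫ g) x'
    rw [e] at this
    exact this
  exact ringHom_flat_of_comp (g.stalkMap (f x')).hom (f.stalkMap x').hom h1 h2

end Groth.Agent.Lib.Helper2
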