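import Groth.Prelude.Def_MoreMor
import Mathlib.AlgebraicGeometry.Morphisms.UniversallyClosed
import Mathlib.AlgebraicGeometry.Morphisms.UniversallyInjective
import Mathlib.AlgebraicGeometry.Morphisms.UniversallyOpen
import Mathlib.AlgebraicGeometry.Morphisms.Proper

set_option autoImplicit false

universe u

open AlgebraicGeometry CategoryTheory Limits

namespace Groth.Agent.Lib.Helper2

theorem thick_isHomeomorph {X X' : Scheme.{u}} (i : X ⟶ X') (h : MoreMor.IsThickening i) :
    IsHomeomorph i := by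
  obtain ⟨h1, h2⟩ := h
  exact isHomeomorph_iff_isEmbedding_surjective.mpr ⟨i.isClosedEmbedding.isEmbedding, i.surjective⟩

theorem spectral_iff_of_homeo {X X' S S' : Type*} [TopologicalSpace X] [TopologicalSpace X']
    [TopologicalSpace S] [TopologicalSpace S'] (iX : X → X') (iS : S → S') (f : X → S) (f' : X' → S')
    (hX : IsHomeomorph iX) (hS : IsHomeomorph iS) (w : ∀ x, f' (iX x) = iS (f x)) :
    IsSpectralMap f ↔ IsSpectralMap f' := by
  constructor
  · intro hf
    have e : f' = iS ∘ f ∘ (hX.homeomorph iX).symm := by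
      funext y
      obtain ⟨x, rfl⟩ := hX.surjective y
      have : (hX.homeomorph iX).symm (iX x) = x := (hX.homeomorph iX).symm_apply_apply x
      simp [this, w]
    rw [e]
    exact hS.isProperMap.isSpectralMap.comp
      (hf.comp (hX.homeomorph iX).symm.isProperMap.isSpectralMap)
  · intro hf'
    have e : f = (hS.homeomorph iS).symm ∘ f' ∘ iX := by
      funext x
      have : (hS.homeomorph iS).symm (iS (f x)) = f x := (hS.homeomorph iS).symm_apply_apply (f x)
      simp [w, this]
    rw [e]
    exact (hS.homeomorph iS).symm.isProperMap.isSpectralMap.comp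
      (hf'.comp hX.isProperMap.isSpectralMap)

theorem comm_apply {X X' S S' : Scheme.{u}} (iX : X ⟶ X') (iS : S ⟶ S') (f : X ⟶ S)
    (f' : X' ⟶ S') (w : iX ≫ f' = f ≫ iS) (x : X) : f' (iX x) = iS (f x) := by
  rw [← Scheme.Hom.comp_apply, w, Scheme.Hom.comp_apply]

theorem isOpenMap_of_comp_surjective' {X Y Z : Type*} [TopologicalSpace X] [TopologicalSpace Y]
    [TopologicalSpace Z] {f : X → Y} {g : Y → Z} (hf : Function.Surjective f) (hf' : Continuous f)
    (hfg : IsOpenMap (g ∘ f)) : IsOpenMap g := by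
  intro K hK
  rw [← Set.image_preimage_eq K hf, ← Set.image_comp]
  exact hfg _ (hK.preimage hf')

theorem universallyInjective_of_comp_surjective {X Y Z : Scheme.{u}} (f : X ⟶ Y) (g : Y ⟶ Z)
    [UniversallyInjective (f ≫ g)] [Surjective f] : UniversallyInjective g := by
  constructor
  intro X' Y' i₁ i₂ f' H
  have := UniversallyInjective.universally_injective _ _ _
    ((IsPullback.of_hasPullback i₁ f).paste_horiz H)
  exact Function.Injective.of_comp_right this
    (MorphismProperty.pullback_fst (P := @Surjective) _ _ ‹_›).1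

theorem universallyOpen_of_comp_surjective {X Y Z : Scheme.{u}} (f : X ⟶ Y) (g : Y ⟶ Z)
    [UniversallyOpen (f ≫ g)] [Surjective f] : UniversallyOpen g := by
  constructor
  intro X' Y' i₁ i₂ f' H
  have := UniversallyOpen.universally_isOpenMap _ _ _ ((IsPullback.of_hasPullback i₁ f).paste_horiz H)
  exact isOpenMap_of_comp_surjective'
    (MorphismProperty.pullback_fst (P := @Surjective) _ _ ‹_›).1 (Scheme.Hom.continuous _) this

theorem universallyInjective_of_comp {X Y Z : Scheme.{u}} (f : X ⟶ Y) (g : Y ⟶ Z)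
    [UniversallyInjective (f ≫ g)] : UniversallyInjective f := by
  have h := (tfae_universallyInjective (f ≫ g)).out 0 1
  have h' := (tfae_universallyInjective f).out 0 1
  rw [h']
  intro K _ a b hab
  exact (h.mp ‹_› K) (by simp only [← Category.assoc]; exact congrArg (· ≫ g) hab)

end Groth.Agent.Lib.Helper2

namespace Groth.Agent.Lib.Helper2

theorem quasiSeparated_of_comp_homeo {X Y Z : Scheme.{u}} (f : X ⟶ Y) (g : Y ⟶ Z)
    [QuasiSeparated (f ≫ g)] (hf : IsHomeomorph f) : QuasiSeparated g := by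
  rw [HasAffineProperty.iff_of_iSup_eq_top (P := @QuasiSeparated)
    (fun U : Z.affineOpens => U) (by simpa using iSup_affineOpens_eq_top Z)]
  intro U
  have h1 : QuasiSeparatedSpace ((f ≫ g) ⁻¹ᵁ (U : Z.Opens)) :=
    HasAffineProperty.restrict (P := @QuasiSeparated) ‹_› U
  have h2 : IsQuasiSeparated (((f ≫ g) ⁻¹ᵁ (U : Z.Opens) : X.Opens) : Set X) :=
    (isQuasiSeparated_iff_quasiSeparatedSpace _ ((f ≫ g) ⁻¹ᵁ (U : Z.Opens)).2).mpr h1
  have h3 := h2.image_of_isEmbedding hf.isEmbedding
  have e : (f : X → Y) '' (((f ≫ g) ⁻¹ᵁ (U : Z.Opens) : X.Opens) : Set X) =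
      ((g ⁻¹ᵁ (U : Z.Opens) : Y.Opens) : Set Y) := by
    rw [Scheme.Hom.comp_preimage]
    exact Set.image_preimage_eq ((g ⁻¹ᵁ (U : Z.Opens) : Y.Opens) : Set Y) hf.surjective
  rw [e] at h3
  exact (isQuasiSeparated_iff_quasiSeparatedSpace _ (g ⁻¹ᵁ (U : Z.Opens)).2).mp h3

end Groth.Agent.Lib.Helper2

namespace Groth.Agent.Lib.Helper2

theorem thick_universallyOpen {X X' : Scheme.{u}} (i : X ⟶ X') (h : MoreMor.IsThickening i) :
    UniversallyOpen i := by
  obtain ⟨h1, h2⟩ := h
  constructor
  intro T T' a b i' H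
  have c1 : IsClosedImmersion i' :=
    MorphismProperty.IsStableUnderBaseChange.of_isPullback (P := @IsClosedImmersion) H.flip h1
  have c2 : Surjective i' :=
    MorphismProperty.IsStableUnderBaseChange.of_isPullback (P := @Surjective) H.flip h2
  exact (thick_isHomeomorph i' ⟨c1, c2⟩).isOpenMap

end Groth.Agent.Lib.Helper2

namespace Groth.Agent.Lib.Helper2

theorem universallyOpen_of_comp_mono {X Y Z : Scheme.{u}} (f : X ⟶ Y) (g : Y ⟶ Z)
    [hc : UniversallyOpen (f ≫ g)] [Mono g] : UniversallyOpen f := by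
  constructor
  intro T T' a b f' H
  have sq2 : IsPullback (𝟙 T') b (b ≫ g) g := IsPullback.of_horiz_isIso_mono ⟨by simp⟩
  have H2 := H.paste_horiz sq2
  rw [Category.comp_id] at H2
  exact hc.universally_isOpenMap _ _ _ H2

end Groth.Agent.Lib.Helper2
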